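import Cfsg.Agent.H988.Car.Mov

/-!
# S3852: involution centralisers (helper988)

* `movedAt_lift` : lifting through a central kernel of exponent 2;
* `movedAt_cent` : elements of order `p` commuting with `t`, `f : C(t) → B` with central kernel of exponent 2, `Moved p B`;
* `index_of_sylow`, `index_of_card` : involutions with centralisers of odd index.
-/

set_option autoImplicit false

namespace Cfsg.Agent.H988.Car

open Subgroup Cfsg
open Cfsg.Agent.H497.Stein

universe u v

/-- **Lifting** through a central kernel of exponent 2. -/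
theorem movedAt_lift {C : Type u} {B : Type v} [Group C] [Group B] (f : C →* B) (hf : Function.Surjective f)
    (hk : ∀ c ∈ f.ker, (∀ g : C, g * c = c * g) ∧ c ^ 2 = 1) {p : ℕ} (hp : Odd p) {y : C} (hy : y ^ p = 1)
    (h : MovedAt (f y)) : MovedAt y := by
  obtain ⟨g, j, h1, h2⟩ := h
  obtain ⟨g, rfl⟩ := hf g
  refine ⟨g, j, ?_, fun h3 => h2 (by rw [← map_pow, h3])⟩
  obtain ⟨c, hc⟩ : ∃ c, c = (y ^ j)⁻¹ * (g * y * g⁻¹) := ⟨_, rfl⟩
  have hck : c ∈ f.ker := by
    rw [MonoidHom.mem_ker, hc, map_mul, map_inv, map_mul, map_mul, map_inv, map_pow, h1, inv_mul_cancel]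
  obtain ⟨hcc, hc2⟩ := hk c hck
  have e1 : g * y * g⁻¹ = y ^ j * c := by rw [hc]; group
  have e2 : (g * y * g⁻¹) ^ (p + 1) = g * y * g⁻¹ := by
    rw [conj_pow, pow_succ, hy, one_mul]
  have hcomm : Commute (y ^ j) c := hcc (y ^ j)
  obtain ⟨m, hm⟩ : ∃ m, p + 1 = 2 * m := by
    obtain ⟨m, hm⟩ := hp
    exact ⟨m + 1, by omega⟩
  have e3 : (y ^ j * c) ^ (p + 1) = y ^ j := by
    rw [hcomm.mul_pow, show c ^ (p + 1) = 1 by rw [hm, pow_mul, hc2, one_pow], mul_one, ← pow_mul, mul_comm j, pow_mul,
      pow_succ y, hy, one_mul]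
  rw [← e2, e1, e3]

/-- elements of order `p` of `C(t)` -/
theorem movedAt_cent {T : Type u} [Group T] {B : Type v} [Group B] {t : T}
    (f : ↥(centralizer ({t} : Set T)) →* B) (hf : Function.Surjective f)
    (hk : ∀ c ∈ f.ker, (∀ g, g * c = c * g) ∧ c ^ 2 = 1) {p : ℕ} (hp : p.Prime) (hp2 : p ≠ 2) (hm : Moved p B) {y : T}
    (hy : orderOf y = p) (hyt : y * t = t * y) : MovedAt y := by
  let y' : ↥(centralizer ({t} : Set T)) := ⟨y, mem_centralizer_singleton_iff.2 hyt⟩
  have hyp : y' ^ p = 1 := Subtype.ext (by rw [← hy]; exact pow_orderOf_eq_one y)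
  have hodd : Odd p := hp.odd_of_ne_two hp2
  have h1 : orderOf (f y') = p := by
    have h2 : orderOf (f y') ∣ p := orderOf_dvd_of_pow_eq_one (by rw [← map_pow, hyp, map_one])
    rcases (Nat.dvd_prime hp).1 h2 with h3 | h3
    · exfalso
      rw [orderOf_eq_one_iff] at h3
      obtain ⟨-, h4⟩ := hk y' h3
      have h5 : orderOf y' ∣ 2 := orderOf_dvd_of_pow_eq_one h4
      have h6 : orderOf y' = p := by rw [← hy]; exact Subgroup.orderOf_mk _ _
      rw [h6] at h5
      exact hp2 ((Nat.prime_dvd_prime_iff_eq hp Nat.prime_two).1 h5)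
    · exact h3
  exact (movedAt_lift f hf hk hodd hyp (hm _ h1)).map (centralizer ({t} : Set T)).subtype
    (centralizer ({t} : Set T)).subtype_injective

theorem MovedAt.of_equiv {T : Type u} [Group T] {T' : Type v} [Group T'] (e : T ≃* T') {y : T} (h : MovedAt (e y)) :
    MovedAt y := by
  have h1 := h.map e.symm.toMonoidHom e.symm.injective
  have h2 : e.symm.toMonoidHom (e y) = y := e.symm_apply_apply y
  rwa [h2] at h1

theorem map_cent {T : Type u} [Group T] {T' : Type v} [Group T'] (e : T ≃* T') (t : T) :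
    (centralizer ({t} : Set T)).map e.toMonoidHom = centralizer ({e t} : Set T') := by
  ext x
  constructor
  · rintro ⟨y, hy, rfl⟩
    rw [mem_centralizer_singleton_iff]
    show e y * e t = e t * e y
    rw [← map_mul, ← map_mul, mem_centralizer_singleton_iff.1 hy]
  · intro hx
    refine ⟨e.symm x, ?_, e.apply_symm_apply x⟩
    rw [SetLike.mem_coe, mem_centralizer_singleton_iff]
    apply e.injective
    rw [map_mul, map_mul, e.apply_symm_apply]
    exact mem_centralizer_singleton_iff.1 hx

theorem index_cent {T : Type u} [Group T] {T' : Type v} [Group T'] (e : T ≃* T') (t : T) :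
    (centralizer ({t} : Set T)).index = (centralizer ({e t} : Set T')).index := by
  rw [← map_cent e t]
  exact (Subgroup.index_map_of_bijective (f := e.toMonoidHom) e.bijective _).symm

theorem index_cent_conj {T : Type u} [Group T] (g t : T) :
    (centralizer ({g * t * g⁻¹} : Set T)).index = (centralizer ({t} : Set T)).index :=
  (index_cent (MulAut.conj g) t).symm

/-- `t` is centralised by a Sylow `2`-subgroup -/
theorem index_of_sylow {T : Type u} [Group T] [Finite T] (P : Sylow 2 T) {t : T}
    (h : ∀ x ∈ (P : Subgroup T), x * t = t * x) : ¬ 2 ∣ (centralizer ({t} : Set T)).index := by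
  have : Fact (Nat.Prime 2) := ⟨Nat.prime_two⟩
  intro hd
  have h1 : (P : Subgroup T) ≤ centralizer ({t} : Set T) := fun x hx => mem_centralizer_singleton_iff.2 (h x hx)
  exact P.not_dvd_index (hd.trans (index_dvd_of_le h1))

theorem index_of_card {T : Type u} [Group T] [Finite T] {t : T} {m k : ℕ} (hN : Nat.card T = m * k)
    (hm : Nat.card ↥(centralizer ({t} : Set T)) = m) (hk : Odd k) : ¬ 2 ∣ (centralizer ({t} : Set T)).index := by
  have h1 := (centralizer ({t} : Set T)).card_mul_index
  rw [hN, hm] at h1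
  have hm0 : 0 < m := by rw [← hm]; exact Nat.card_pos
  rw [Nat.eq_of_mul_eq_mul_left hm0 h1]
  exact fun h => (Nat.not_even_iff_odd.2 hk) (even_iff_two_dvd.2 h)

theorem selfN_eq {T : Type u} [Group T] (h : ∀ P : Sylow 2 T, normalizer ((P : Subgroup T) : Set T) ≤ P)
    (P : Sylow 2 T) : normalizer ((P : Subgroup T) : Set T) = P := le_antisymm (h P) le_normalizer

end Cfsg.Agent.H988.Car
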