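import Cfsg.Agent.H18.Carter.Pass3
import Cfsg.Agent.H18.Carter.Rows
import Cfsg.Agent.H18.Carter.OfAS

/-!
# S3852: the calculus `RF` (helper988)

`RF r N` : whenever `N₀ ≃* N` is a normal subgroup of a finite group `G` (all smaller groups have conjugate Carter
subgroups) and `K` is a Carter subgroup of `G`, then `r` does not divide `|K ∩ N₀|`.

* `RF.of_not_dvd` : `r ∤ |N|`;
* `RF.of_simple`  : `N` nonabelian simple, elements of order `r` conjugate (in `N`) to other powers;
* `RF.of_row`     : `N` nonabelian simple, the row is known;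
* `RF.ext`        : `L` characteristic in `N`, `RF r L`, `RF r (N / L)`;
* `not_dvd_of_RF` : `Ctx G S`, `t ∈ S ∩ Z(K)`, `RF r (C_S(t))`: `r ∤ |K ∩ S|`.
-/

set_option autoImplicit false
set_option linter.unusedSectionVars false

namespace Cfsg.Agent.H988.Car

open Subgroup Pointwise
open Cfsg.Agent.Solvable.Carter Cfsg.Agent.H18.Carter Cfsg.Agent.H381.Car
open scoped commutatorElement

universe u v w

/-- all smaller groups have conjugate Carter subgroups -/
def Sm (G : Type u) [Group G] : Prop := ∀ (B : Type u) [Group B] [Finite B], Nat.card B < Nat.card G → CC B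

theorem Sm.mono {G H : Type u} [Group G] [Group H] (h : Sm G) (hc : Nat.card H ≤ Nat.card G) : Sm H :=
  fun B _ _ hB => h B (hB.trans_le hc)

theorem Sm.sub {G : Type u} [Group G] [Finite G] (h : Sm G) (H : Subgroup G) (hH : H ≠ ⊤) : CC H :=
  h H (Cfsg.Agent.Lib.SolvableNormalP.card_lt_of_ne_top hH)

/-- see the header -/
def RF (r : ℕ) (N : Type v) [Group N] : Prop :=
  ∀ (G : Type u) [Group G] [Finite G] (N₀ : Subgroup G) [N₀.Normal], Nonempty (N₀ ≃* N) → Sm G →
    ∀ K : Subgroup G, IsCarter K → ¬ r ∣ Nat.card (K ⊓ N₀ : Subgroup G)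

theorem RF.congr {r : ℕ} {N : Type v} {N' : Type w} [Group N] [Group N'] (e : N ≃* N') (h : RF.{u} r N) :
    RF.{u} r N' := fun G _ _ N₀ _ ⟨e'⟩ hs K hK => h G N₀ ⟨e'.trans e.symm⟩ hs K hK

theorem RF.of_not_dvd {r : ℕ} {N : Type v} [Group N] (h : ¬ r ∣ Nat.card N) : RF.{u} r N := by
  intro G _ _ N₀ _ ⟨e⟩ _ K _ hd
  apply h
  rw [← Nat.card_congr e.toEquiv]
  exact hd.trans (card_dvd_of_le inf_le_right)

/-- the row for the simple group `T` at the prime `r` -/
def RowAt (r : ℕ) (T : Type v) [Group T] : Prop :=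
  ∀ (G : Type u) [Group G] [Finite G] (S : Subgroup G) [S.Normal], Ctx G S → Nonempty (S ≃* T) →
    ∀ K : Subgroup G, IsCarter K → ¬ r ∣ Nat.card (K ⊓ S : Subgroup G)

/-- components -/
theorem not_dvd_comps {G : Type u} [Group G] [Finite G] {K : Subgroup G} {m : ℕ} (c : Comps G K m) (i : Fin m)
    (hK : IsCarter K) (hs : Sm G) {r : ℕ} (hr : r.Prime)
    (hZ : ¬ r ∣ Nat.card ↥(c.N ⊓ centralizer (c.N : Set G) : Subgroup G))
    (hsim : IsSimpleGroup (↥(c.E i) ⧸ center ↥(c.E i)))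
    {T : Type v} [Group T] (e : (↥(c.E i) ⧸ center ↥(c.E i)) ≃* T) (h : RowAt.{u} r T) :
    ¬ r ∣ Nat.card ↥(K ⊓ c.N) := by
  intro hd
  obtain ⟨B, _, _, S, R, f, hp, hcard⟩ := c.pass hK (fun B _ _ hB => hs B hB) i
  have := hp.normal
  have hctx : Ctx B S := Ctx.of_carter (hp.simple hsim) (hp.na (c.perf i) (c.ne i)) hp.cen
    (fun B' _ _ hB' => hs B' (hB'.trans_le (hcard.trans (Nat.card_mono (Set.toFinite _) le_top |>.trans
      (le_of_eq Subgroup.card_top))))) hp.carter hp.sup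
  obtain ⟨e'⟩ := hp.equiv
  rcases c.dvd hp hr hd with h1 | h1
  · exact h B S hctx ⟨e'.symm.trans e⟩ R hp.carter h1
  · exact hZ h1

theorem perfect_of_simple {T : Type v} [Group T] [IsSimpleGroup T] (na : ¬ ∀ a b : T, a * b = b * a) :
    ⁅(⊤ : Subgroup T), (⊤ : Subgroup T)⁆ = ⊤ := by
  rcases IsSimpleGroup.eq_bot_or_eq_top_of_normal ⁅(⊤ : Subgroup T), (⊤ : Subgroup T)⁆ inferInstance with h | h
  · exfalso
    apply na
    intro a b
    have h1 : ⁅a, b⁆ ∈ ⁅(⊤ : Subgroup T), (⊤ : Subgroup T)⁆ := commutator_mem_commutator (mem_top a) (mem_top b)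
    rw [h, mem_bot, commutatorElement_eq_one_iff_mul_comm] at h1
    exact h1
  · exact h

theorem RF.of_row {r : ℕ} (hr : r.Prime) {T : Type v} [Group T] [IsSimpleGroup T] (na : ¬ ∀ a b : T, a * b = b * a)
    (h : RowAt.{u} r T) : RF.{u} r T := by
  intro G _ _ N₀ _ ⟨e⟩ hs K hK
  have hsN : IsSimpleGroup N₀ := by
    have : Nontrivial N₀ := e.toEquiv.nontrivial
    exact IsSimpleGroup.isSimpleGroup_of_surjective e.symm.toMonoidHom e.symm.surjective
  have naN : ¬ ∀ a b : N₀, a * b = b * a := by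
    intro h1
    apply na
    intro a b
    have h2 := congrArg e (h1 (e.symm a) (e.symm b))
    rwa [map_mul, map_mul, e.apply_symm_apply, e.apply_symm_apply] at h2
  have hp : ⁅N₀, N₀⁆ = N₀ := by
    have h1 := congrArg (Subgroup.map N₀.subtype) (perfect_of_simple naN)
    rw [map_commutator, ← MonoidHom.range_eq_map, range_subtype] at h1
    exact h1
  have hne : N₀ ≠ ⊥ := (Subgroup.nontrivial_iff_ne_bot _).1 hsN.toNontrivial
  have hc : center N₀ = ⊥ := by
    rcases IsSimpleGroup.eq_bot_or_eq_top_of_normal (center N₀) inferInstance with h1 | h1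
    · exact h1
    · exfalso
      apply naN
      intro a b
      have : b ∈ center N₀ := by rw [h1]; trivial
      exact mem_center_iff.1 this a
  have hKN : K ≤ normalizer (N₀ : Set G) := by rw [normalizer_eq_top]; exact le_top
  let c := Comps.single hp hne hKN
  have hN : c.N = N₀ := Comps.single_N hp hne hKN
  let q : N₀ ≃* (↥N₀ ⧸ center ↥N₀) := ((QuotientGroup.quotientMulEquivOfEq hc).trans QuotientGroup.quotientBot).symm
  have hsim : IsSimpleGroup (↥N₀ ⧸ center ↥N₀) := by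
    have : Nontrivial (↥N₀ ⧸ center ↥N₀) := q.symm.toEquiv.nontrivial
    exact IsSimpleGroup.isSimpleGroup_of_surjective q.toMonoidHom q.surjective
  have hZ : ¬ r ∣ Nat.card ↥(c.N ⊓ centralizer (c.N : Set G) : Subgroup G) := by
    rw [hN]
    have h1 : N₀ ⊓ centralizer (N₀ : Set G) = ⊥ := by
      rw [eq_bot_iff]
      rintro x ⟨hx, hx'⟩
      have h2 : (⟨x, hx⟩ : N₀) ∈ center N₀ := by
        rw [mem_center_iff]
        intro g
        exact Subtype.ext (hx' g g.2)
      rw [hc, mem_bot] at h2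
      exact congrArg Subtype.val h2
    rw [h1, card_bot]
    exact hr.one_lt.ne' ∘ Nat.dvd_one.1
  have := not_dvd_comps c 0 hK hs hr hZ hsim (q.symm.trans e) h
  rwa [hN] at this

theorem rowAt_of_power {r : ℕ} [Fact r.Prime] {T : Type v} [Group T]
    (h : ∀ z : T, orderOf z = r → ∃ g : T, g * z * g⁻¹ ≠ z ∧ g * z * g⁻¹ ∈ zpowers z) : RowAt.{u} r T := by
  intro G _ _ S _ c ⟨e⟩ K hK
  refine not_dvd_of_power c (r := r) ?_ hK
  intro z hz ho
  have ho' : orderOf (e ⟨z, hz⟩) = r := by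
    rw [← ho, ← Subgroup.orderOf_mk z hz]
    exact orderOf_injective e.toMonoidHom e.injective ⟨z, hz⟩
  obtain ⟨g, h1, h2⟩ := h _ ho'
  have key : e.symm (g * e ⟨z, hz⟩ * g⁻¹) = e.symm g * ⟨z, hz⟩ * (e.symm g)⁻¹ := by
    rw [map_mul, map_mul, map_inv, e.symm_apply_apply]
  refine ⟨(e.symm g : S), fun h3 => h1 ?_, ?_⟩
  · apply e.symm.injective
    rw [key, e.symm_apply_apply]
    exact Subtype.ext h3
  · obtain ⟨k, hk⟩ := mem_zpowers_iff.1 h2
    have h4 := congrArg e.symm hk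
    rw [map_zpow, e.symm_apply_apply, key] at h4
    exact mem_zpowers_iff.2 ⟨k, congrArg Subtype.val h4⟩

theorem RF.of_simple {r : ℕ} [Fact r.Prime] {T : Type v} [Group T] [IsSimpleGroup T]
    (na : ¬ ∀ a b : T, a * b = b * a)
    (h : ∀ z : T, orderOf z = r → ∃ g : T, g * z * g⁻¹ ≠ z ∧ g * z * g⁻¹ ∈ zpowers z) : RF.{u} r T :=
  RF.of_row Fact.out na (rowAt_of_power h)

/-- extension by a normal subgroup `L₀` of `G` -/
theorem not_dvd_ext {G : Type u} [Group G] [Finite G] (hs : Sm G) {K N L : Subgroup G} [N.Normal] [L.Normal]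
    (hLN : L ≤ N) (hK : IsCarter K) {r : ℕ} (hr : r.Prime) (h1 : ¬ r ∣ Nat.card (K ⊓ L : Subgroup G))
    (h2 : ¬ r ∣ Nat.card (K.map (QuotientGroup.mk' L) ⊓ N.map (QuotientGroup.mk' L) : Subgroup (G ⧸ L))) :
    ¬ r ∣ Nat.card (K ⊓ N : Subgroup G) := by
  intro hd
  have : Fact r.Prime := ⟨hr⟩
  obtain ⟨x, hx⟩ := exists_prime_orderOf_dvd_card' r hd
  have hxo : orderOf (x : G) = r := by rw [← hx]; exact (Subgroup.orderOf_coe x)
  by_cases hxL : (x : G) ∈ L
  · apply h1
    rw [← hxo, ← Subgroup.orderOf_mk (x : G) (Subgroup.mem_inf.2 ⟨x.2.1, hxL⟩ : (x : G) ∈ K ⊓ L)]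
    exact orderOf_dvd_natCard _
  · apply h2
    have hm : QuotientGroup.mk' L (x : G) ∈ K.map (QuotientGroup.mk' L) ⊓ N.map (QuotientGroup.mk' L) :=
      ⟨⟨_, x.2.1, rfl⟩, ⟨_, x.2.2, rfl⟩⟩
    have ho : orderOf (QuotientGroup.mk' L (x : G)) = r := by
      apply orderOf_eq_prime
      · rw [← map_pow, ← hxo, pow_orderOf_eq_one, map_one]
      · intro h
        exact hxL ((QuotientGroup.eq_one_iff _).1 h)
    rw [← ho, ← Subgroup.orderOf_mk _ hm]
    exact orderOf_dvd_natCard _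

theorem isCarter_mk {G : Type u} [Group G] [Finite G] (hs : Sm G) {K : Subgroup G} (hK : IsCarter K) (L : Subgroup G)
    [L.Normal] : IsCarter (K.map (QuotientGroup.mk' L)) :=
  hK.map (QuotientGroup.mk'_surjective L) fun H hH => hs.sub H hH

/-- **Extension.** -/
theorem RF.ext {r : ℕ} (hr : r.Prime) {N : Type v} [Group N] (L : Subgroup N) [L.Characteristic] (h1 : RF.{u} r L)
    (h2 : RF.{u} r (N ⧸ L)) : RF.{u} r N := by
  intro G _ _ N₀ _ ⟨e⟩ hs K hK
  -- the image of `L` in `G`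
  let L₁ : Subgroup N₀ := L.comap e.toMonoidHom
  have hL₁ : L₁.Characteristic := by
    rw [characteristic_iff_comap_eq]
    intro φ
    have h3 := (characteristic_iff_comap_eq.1 (inferInstance : L.Characteristic)) ((e.symm.trans φ).trans e)
    ext x
    have h4 := SetLike.ext_iff.1 h3 (e x)
    rw [mem_comap] at h4
    have h5 : ((e.symm.trans φ).trans e).toMonoidHom (e x) = e (φ x) := by
      show e (φ (e.symm (e x))) = e (φ x)
      rw [e.symm_apply_apply]
    rw [h5] at h4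
    exact h4
  let L₀ : Subgroup G := L₁.map N₀.subtype
  have hL₀ : L₀.Normal := inferInstance
  have hLN : L₀ ≤ N₀ := map_subtype_le _
  have eL : L₀ ≃* L := by
    refine (L₁.equivMapOfInjective N₀.subtype N₀.subtype_injective).symm.trans ?_
    refine (L₁.equivMapOfInjective e.toMonoidHom e.injective).trans ?_
    refine MulEquiv.subgroupCongr ?_
    exact Subgroup.map_comap_eq_self_of_surjective e.surjective L
  refine not_dvd_ext hs hLN hK hr (h1 G L₀ ⟨eL⟩ hs K hK) ?_
  have hn : (N₀.map (QuotientGroup.mk' L₀)).Normal := inferInstance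
  refine h2 (G ⧸ L₀) (N₀.map (QuotientGroup.mk' L₀)) ⟨?_⟩ ?_ _ (isCarter_mk hs hK L₀)
  · -- `N₀ / L₀ ≃* N / L`
    let f : N₀ →* ↥(N₀.map (QuotientGroup.mk' L₀)) := (QuotientGroup.mk' L₀).subgroupMap N₀
    have hf : Function.Surjective f := (QuotientGroup.mk' L₀).subgroupMap_surjective N₀
    have hker : f.ker = L₁ := by
      ext x
      rw [MonoidHom.mem_ker]
      constructor
      · intro h3
        have h4 : QuotientGroup.mk' L₀ (x : G) = 1 := congrArg Subtype.val h3
        have h5 := (QuotientGroup.eq_one_iff (x : G)).1 h4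
        obtain ⟨y, hy, hyx⟩ := h5
        have : y = x := Subtype.ext hyx
        exact this ▸ hy
      · intro h3
        apply Subtype.ext
        exact (QuotientGroup.eq_one_iff (x : G)).2 ⟨x, h3, rfl⟩
    let e1 : (N₀ ⧸ f.ker) ≃* ↥(N₀.map (QuotientGroup.mk' L₀)) := QuotientGroup.quotientKerEquivOfSurjective f hf
    have e2 : (N₀ ⧸ L₁) ≃* (N ⧸ L) := QuotientGroup.congr L₁ L e (by
      exact Subgroup.map_comap_eq_self_of_surjective e.surjective L)
    exact e1.symm.trans ((QuotientGroup.quotientMulEquivOfEq hker).trans e2)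
  · refine hs.mono ?_
    rw [Subgroup.card_eq_card_quotient_mul_card_subgroup L₀]
    exact Nat.le_mul_of_pos_right _ Nat.card_pos

/-- **Centralisers.** -/
theorem not_dvd_of_RF {G : Type u} [Group G] [Finite G] {S : Subgroup G} [S.Normal] (c : Ctx G S) {r : ℕ}
    {K : Subgroup G} (hK : IsCarter K) {t : S} (ht : t ≠ 1) (hKt : K ≤ centralizer ({(t : G)} : Set G))
    (h : RF.{u} r ↥(centralizer ({t} : Set S))) : ¬ r ∣ Nat.card (K ⊓ S : Subgroup G) := by
  set Y := centralizer ({(t : G)} : Set G) with hY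
  have ht' : (t : G) ≠ 1 := fun h => ht (Subtype.ext h)
  have hYt : Y ≠ ⊤ := c.cent_ne_top ht'
  have hs : Sm Y := fun B _ _ hB => c.min B (hB.trans (Cfsg.Agent.Lib.SolvableNormalP.card_lt_of_ne_top hYt))
  have e : ↥(S.subgroupOf Y) ≃* ↥(centralizer ({t} : Set S)) :=
    { toFun := fun x => ⟨⟨(x : G), mem_subgroupOf.1 x.2⟩, by
        rw [mem_centralizer_singleton_iff]
        exact Subtype.ext (mem_centralizer_singleton_iff.1 x.1.2)⟩
      invFun := fun x => ⟨⟨((x : S) : G), by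
        rw [hY, mem_centralizer_singleton_iff]
        exact congrArg Subtype.val (mem_centralizer_singleton_iff.1 x.2)⟩, mem_subgroupOf.2 (x : S).2⟩
      left_inv := fun x => rfl
      right_inv := fun x => rfl
      map_mul' := fun x y => rfl }
  have h1 := h Y (S.subgroupOf Y) ⟨e⟩ hs (K.subgroupOf Y) (hK.subgroupOf hKt)
  intro hd
  apply h1
  have h2 : Nat.card ↥(K.subgroupOf Y ⊓ S.subgroupOf Y) = Nat.card (K ⊓ S : Subgroup G) := by
    have : K.subgroupOf Y ⊓ S.subgroupOf Y = (K ⊓ S).subgroupOf Y := rfl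
    rw [this]
    exact Nat.card_congr (subgroupOfEquivOfLe (inf_le_left.trans hKt)).toEquiv
  rwa [h2]

end Cfsg.Agent.H988.Car
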