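import Cfsg.Agent.H381.Car.Wp
import Cfsg.Agent.H988.Car.RF

/-!
# S3852: the frame of the sporadic rows (helper988)

`c : Ctx G S`, `K` a Carter subgroup of `G`, `D = K ∩ S`.

* `not_dvd_of_cyclic` : the Sylow `r`-subgroups of `S` are cyclic: `r ∤ |D|`; `not_dvd_exact` : `r² ∤ |S|`;
* `odd_norm` : `D` an `l`-group, `l` odd, `|G : S| ∣ 2`: some Sylow `l`-subgroup of `S` has an odd normaliser;
* `isPGroup_two` : `D` is a `2`-group as soon as `D` has no two prime divisors one of which is odd;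
* `isPGroup_of_central` : `t ∈ Z(K) ∩ S` with `|S : C_S(t)|` odd, Sylow `2`-subgroups of `S` self-normalising: `K` is
  a `2`-group.
-/

set_option autoImplicit false
set_option linter.unusedSectionVars false

namespace Cfsg.Agent.H988.Car

open Subgroup Pointwise
open Cfsg.Agent.Solvable.Carter Cfsg.Agent.H18.Carter Cfsg.Agent.H381.Car
open scoped commutatorElement

universe u v w

/-! ### cyclic Sylow subgroups -/

section

/-- in a cyclic group the subgroups of order `r` are equal -/
theorem mem_zpowers_of_cyclic {Q : Type*} [Group Q] [Finite Q] [IsCyclic Q] {r : ℕ} [hr : Fact r.Prime] {x z : Q}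
    (hx : orderOf x = r) (hz : orderOf z = r) : x ∈ zpowers z := by
  classical
  have := Fintype.ofFinite Q
  have h1 : (Finset.univ.filter fun a : Q => a ∈ zpowers z) ⊆ Finset.univ.filter fun a : Q => a ^ r = 1 := by
    intro a ha
    rw [Finset.mem_filter] at ha ⊢
    refine ⟨Finset.mem_univ _, ?_⟩
    obtain ⟨i, rfl⟩ := mem_zpowers_iff.1 ha.2
    rw [← zpow_natCast, ← zpow_mul, mul_comm, zpow_mul, zpow_natCast, ← hz, pow_orderOf_eq_one, one_zpow]
  have h2 : (Finset.univ.filter fun a : Q => a ∈ zpowers z).card = r := by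
    rw [← hz, ← Nat.card_zpowers z, ← Fintype.card_subtype, Nat.card_eq_fintype_card]
  have h3 : (Finset.univ.filter fun a : Q => a ^ r = 1).card ≤ r :=
    IsCyclic.card_pow_eq_one_le hr.out.pos
  have h4 := Finset.eq_of_subset_of_card_le h1 (h3.trans h2.ge)
  have h5 : x ∈ Finset.univ.filter fun a : Q => a ^ r = 1 := by
    rw [Finset.mem_filter]
    exact ⟨Finset.mem_univ _, by rw [← hx, pow_orderOf_eq_one]⟩
  rw [← h4, Finset.mem_filter] at h5
  exact h5.2

/-- An automorphism of order prime to `r` of a cyclic `r`-group which fixes an element of order `r` is trivial. -/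
theorem aut_cyclic {Q : Type*} [Group Q] [Finite Q] {r : ℕ} [hr : Fact r.Prime] (hQ : IsPGroup r Q) [IsCyclic Q]
    (σ : MulAut Q) (hσ : ¬ r ∣ orderOf σ) {z : Q} (hz : orderOf z = r) (hzσ : σ z = z) : σ = 1 := by
  obtain ⟨g, hg⟩ := IsCyclic.exists_generator (α := Q)
  obtain ⟨k, hk⟩ := mem_zpowers_iff.1 (hg (σ g))
  -- every element is raised to the `k`-th power
  have hpow : ∀ x : Q, σ x = x ^ k := by
    intro x
    obtain ⟨m, rfl⟩ := mem_zpowers_iff.1 (hg x)
    rw [map_zpow, ← hk, ← zpow_mul, ← zpow_mul, mul_comm]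
  have hk1 : (r : ℤ) ∣ k - 1 := by
    have h1 : z ^ (k - 1) = 1 := by
      rw [zpow_sub, zpow_one, ← hpow, hzσ, mul_inv_cancel]
    have h2 := orderOf_dvd_iff_zpow_eq_one.2 h1
    rwa [hz] at h2
  obtain ⟨n, hn⟩ := IsPGroup.iff_card.1 hQ
  have hit : ∀ (m : ℕ) (x : Q), (σ ^ m) x = x ^ (k ^ m) := by
    intro m
    induction m with
    | zero => intro x; rw [pow_zero, pow_zero, zpow_one]; rfl
    | succ m ih =>
      intro x
      rw [pow_succ, MulAut.mul_apply, ih, hpow, ← zpow_mul, pow_succ, mul_comm]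
  have h3 : σ ^ (r ^ n) = 1 := by
    ext x
    rw [hit, MulAut.one_apply]
    have h4 := dvd_sub_pow_of_dvd_sub (R := ℤ) (p := r) (a := k) (b := 1) hk1 n
    rw [one_pow] at h4
    have h5 : ((Nat.card Q : ℕ) : ℤ) ∣ k ^ r ^ n - 1 := by
      rw [hn]
      push_cast
      exact (pow_dvd_pow (r : ℤ) (Nat.le_succ n)).trans h4
    have h6 : x ^ (k ^ r ^ n - 1) = 1 :=
      orderOf_dvd_iff_zpow_eq_one.1 ((Int.natCast_dvd_natCast.2 (orderOf_dvd_natCard x)).trans h5)
    rw [zpow_sub, zpow_one] at h6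
    exact mul_inv_eq_one.1 h6
  have h4 := orderOf_dvd_of_pow_eq_one h3
  obtain ⟨i, -, hi⟩ := (Nat.dvd_prime_pow hr.out).1 h4
  rcases Nat.eq_zero_or_pos i with h0 | h0
  · rw [h0, pow_zero] at hi
    exact orderOf_eq_one_iff.1 hi
  · exact absurd (hi ▸ dvd_pow_self r h0.ne') hσ

end

variable {G : Type u} [Group G] [Finite G] {S : Subgroup G} [S.Normal]

/-- conjugation by an element of the normaliser of a Sylow subgroup which centralises the subgroup up to `p'` -/
theorem not_dvd_orderOf_conj {S : Type*} [Group S] [Finite S] {r : ℕ} [hr : Fact r.Prime] (Q : Sylow r S)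
    (hab : ∀ a ∈ (Q : Subgroup S), ∀ b ∈ (Q : Subgroup S), a * b = b * a)
    (n : ↥(normalizer ((Q : Subgroup S) : Set S))) :
    ¬ r ∣ orderOf (normalizerMonoidHom (Q : Subgroup S) n) := by
  intro hd
  have h1 : r ∣ Nat.card (normalizerMonoidHom (Q : Subgroup S)).range :=
    hd.trans (by
      have h0 := orderOf_dvd_natCard ((normalizerMonoidHom (Q : Subgroup S)).rangeRestrict n)
      rwa [← Subgroup.orderOf_coe] at h0)
  rw [← Subgroup.index_ker] at h1
  have h2 : (Q : Subgroup S).subgroupOf (normalizer ((Q : Subgroup S) : Set S)) ≤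
      (normalizerMonoidHom (Q : Subgroup S)).ker := by
    intro x hx
    rw [MonoidHom.mem_ker]
    ext y
    show ((x : S) * y * (x : S)⁻¹) = y
    rw [hab _ (mem_subgroupOf.1 hx) _ y.2, mul_inv_cancel_right]
  have h3 : r ∣ ((Q : Subgroup S).subgroupOf (normalizer ((Q : Subgroup S) : Set S))).index :=
    h1.trans (index_dvd_of_le h2)
  have h4 : ((Q : Subgroup S).subgroupOf (normalizer ((Q : Subgroup S) : Set S))).index ∣ (Q : Subgroup S).index :=
    relIndex_dvd_index_of_le le_normalizer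
  exact Q.not_dvd_index (h3.trans h4)

/-- **(F1)** cyclic Sylow `r`-subgroups -/
theorem not_dvd_of_cyclic (c : Ctx G S) {r : ℕ} [hr : Fact r.Prime] (P : Sylow r S) (hP : IsCyclic P)
    {K : Subgroup G} (hK : IsCarter K) : ¬ r ∣ Nat.card (K ⊓ S : Subgroup G) := by
  intro hd
  obtain ⟨z, hzS, hzK, hz, hKz⟩ := exists_central (S := S) hK.1 hd
  let z' : S := ⟨z, hzS⟩
  have hz' : orderOf z' = r := by rw [← hz]; exact Subgroup.orderOf_mk z hzS
  have h1 : IsPGroup r (zpowers z') := by
    refine IsPGroup.of_card (n := 1) ?_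
    rw [Nat.card_zpowers, hz', pow_one]
  obtain ⟨Q, hQ⟩ := h1.exists_le_sylow
  have hQc : IsCyclic Q := by
    obtain ⟨g, hg⟩ := MulAction.exists_smul_eq S P Q
    rw [← hg]
    exact isCyclic_of_surjective (P.equivSMul g) (P.equivSMul g).surjective
  have hzQ : z' ∈ (Q : Subgroup S) := hQ (mem_zpowers z')
  have hab : ∀ a ∈ (Q : Subgroup S), ∀ b ∈ (Q : Subgroup S), a * b = b * a := by
    intro a ha b hb
    obtain ⟨g, hg⟩ := IsCyclic.exists_generator (α := Q)
    obtain ⟨i, hi⟩ := mem_zpowers_iff.1 (hg ⟨a, ha⟩)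
    obtain ⟨j, hj⟩ := mem_zpowers_iff.1 (hg ⟨b, hb⟩)
    have h2 : (⟨a, ha⟩ : Q) * ⟨b, hb⟩ = ⟨b, hb⟩ * ⟨a, ha⟩ := by
      rw [← hi, ← hj, ← zpow_add, ← zpow_add, add_comm]
    exact congrArg Subtype.val h2
  have hNC : normalizer ((Q : Subgroup S) : Set S) ≤ centralizer ((Q : Subgroup S) : Set S) := by
    intro n hn
    have h2 : normalizerMonoidHom (Q : Subgroup S) ⟨n, hn⟩ = 1 := by
      refine aut_cyclic (r := r) Q.2 _ (not_dvd_orderOf_conj Q hab ⟨n, hn⟩) (z := ⟨z', hzQ⟩) ?_ ?_
      · exact (Subgroup.orderOf_mk z' hzQ).trans hz'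
      · -- `n z n⁻¹` is a power of `z`
        have h3 : n * z' * n⁻¹ ∈ (Q : Subgroup S) := (mem_normalizer_iff.1 hn z').1 hzQ
        have h4 : (⟨n * z' * n⁻¹, h3⟩ : Q) ∈ zpowers (⟨z', hzQ⟩ : Q) := by
          have ho : orderOf (⟨n * z' * n⁻¹, h3⟩ : Q) = orderOf z' := by
            refine (Subgroup.orderOf_mk _ h3).trans ?_
            have := MulEquiv.orderOf_eq (MulAut.conj n) z'
            rwa [MulAut.conj_apply] at this
          exact mem_zpowers_of_cyclic (ho.trans hz') ((Subgroup.orderOf_mk z' hzQ).trans hz')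
        obtain ⟨i, hi⟩ := mem_zpowers_iff.1 h4
        have h5 : n * z' * n⁻¹ = z' ^ i := (congrArg Subtype.val hi).symm
        have h6 : (n : G) * z * (n : G)⁻¹ = z ^ i := congrArg Subtype.val h5
        have h7 : (n : G) * z * (n : G)⁻¹ = z := by
          refine c.eq_of_conj hK hKz ?_
          rw [h6]
          intro k hk
          rw [mem_centralizer_singleton_iff]
          have h8 : k * z = z * k := mem_centralizer_singleton_iff.mp (hKz hk)
          exact (Commute.zpow_right h8 i : Commute k (z ^ i))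
        apply Subtype.ext
        exact Subtype.ext h7
    intro q hq
    have h3 := congrArg (fun σ : MulAut (Q : Subgroup S) => ((σ ⟨q, hq⟩ : (Q : Subgroup S)) : S)) h2
    have h4 : n * q * n⁻¹ = q := h3
    calc q * n = (n * q * n⁻¹) * n := by rw [h4]
      _ = n * q := by group
  have hcomp := MonoidHom.ker_transferSylow_isComplement' Q hNC
  have hsimp := c.simple
  rcases IsSimpleGroup.eq_bot_or_eq_top_of_normal (MonoidHom.transferSylow Q hNC).ker inferInstance with h | h
  · rw [h] at hcomp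
    have h2 : (Q : Subgroup S) = ⊤ := by
      have := hcomp.sup_eq_top
      rwa [bot_sup_eq] at this
    apply c.na
    intro a b
    exact hab a (h2 ▸ mem_top a) b (h2 ▸ mem_top b)
  · rw [h] at hcomp
    have h2 : (Q : Subgroup S) = ⊥ := by
      have := hcomp.disjoint
      rwa [top_disjoint] at this
    rw [h2, mem_bot] at hzQ
    rw [hzQ, orderOf_one] at hz'
    exact hr.out.one_lt.ne hz'

theorem sylow_cyclic_of_not_sq {S : Type*} [Group S] [Finite S] {r : ℕ} [hr : Fact r.Prime]
    (h : ¬ r ^ 2 ∣ Nat.card S) (P : Sylow r S) : IsCyclic P := by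
  obtain ⟨n, hn⟩ := IsPGroup.iff_card.1 P.2
  have h1 : n ≤ 1 := by
    by_contra h2
    push Not at h2
    apply h
    exact (pow_dvd_pow r h2).trans (hn ▸ card_subgroup_dvd_card (P : Subgroup S))
  interval_cases n
  · have h2 : Nat.card P = 1 := by rw [hn, pow_zero]
    have : Subsingleton P := (Nat.card_eq_one_iff_unique.1 h2).1
    infer_instance
  · exact isCyclic_of_prime_card (p := r) (by rw [hn, pow_one])

/-- `r² ∤ |S|` -/
theorem not_dvd_exact (c : Ctx G S) {r : ℕ} [hr : Fact r.Prime] (h : ¬ r ^ 2 ∣ Nat.card S) {K : Subgroup G}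
    (hK : IsCarter K) : ¬ r ∣ Nat.card (K ⊓ S : Subgroup G) := by
  obtain ⟨P⟩ : Nonempty (Sylow r S) := inferInstance
  exact not_dvd_of_cyclic c P (sylow_cyclic_of_not_sq h P) hK

/-! ### `D` an `l`-group -/

/-- a permutation of order dividing two with one fixed point -/
theorem odd_card_of_unique {α : Type*} [Finite α] (f : α → α) (hf : ∀ x, f (f x) = x) (a : α)
    (ha : ∀ x, f x = x ↔ x = a) : Odd (Nat.card α) := by
  classical
  have := Fintype.ofFinite α
  have hp : Fact (Nat.Prime 2) := ⟨Nat.prime_two⟩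
  let F : Function.End α := f
  have h1 : F ^ 2 ^ 1 = 1 := by
    rw [pow_one, sq]
    funext x
    exact hf x
  have h2 : Fintype.card α ≡ Fintype.card (Function.fixedPoints f) [MOD 2] := Equiv.Perm.card_fixedPoints_modEq h1
  have h3 : Fintype.card (Function.fixedPoints f) = 1 := by
    rw [Fintype.card_eq_one_iff]
    exact ⟨⟨a, (ha a).2 rfl⟩, fun x => Subtype.ext ((ha x).1 x.2)⟩
  rw [h3] at h2
  rw [Nat.card_eq_fintype_card, Nat.odd_iff]
  exact h2

/-- **(F3)** -/
theorem odd_norm (hF : Fpf.{u}) (c : Ctx G S) (hidx : S.index ∣ 2) {l : ℕ} [hl : Fact l.Prime] (hl2 : l ≠ 2)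
    {K : Subgroup G} (hK : IsCarter K) (hD : IsPGroup l (K ⊓ S : Subgroup G)) :
    ∃ P : Sylow l S, Odd (Nat.card ↥(normalizer ((P : Subgroup S) : Set S))) := by
  obtain ⟨P, hPS, hPp, hPl, hPK⟩ := lemma_x hF c.min S hK hD
  have hPp' : IsPGroup l (P.subgroupOf S) := hPp.comap_of_injective S.subtype S.subtype_injective
  let P' : Sylow l S := hPp'.toSylow hPl
  have hP' : (P' : Subgroup S) = P.subgroupOf S := rfl
  refine ⟨P', ?_⟩
  have hDP : K ⊓ S ≤ P := by
    -- `D P` is an `l`-group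
    have h1 : IsPGroup l ((K ⊓ S) ⊔ P : Subgroup G) :=
      hD.to_sup_of_normal_right' hPp (inf_le_left.trans hPK)
    have h2 : IsPGroup l (((K ⊓ S) ⊔ P).subgroupOf S) := h1.comap_of_injective S.subtype S.subtype_injective
    have h3 : (P' : Subgroup S) ≤ ((K ⊓ S) ⊔ P).subgroupOf S := fun x hx => mem_subgroupOf.2 (mem_sup_right (mem_subgroupOf.1 hx))
    have h4 := P'.is_maximal' h2 h3
    intro x hx
    have h5 : (⟨x, hx.2⟩ : S) ∈ ((K ⊓ S) ⊔ P).subgroupOf S := mem_subgroupOf.2 (mem_sup_left hx)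
    rw [h4] at h5
    exact mem_subgroupOf.1 h5
  set M : Subgroup G := normalizer (P : Set G) ⊓ S with hM
  have hPM : P ≤ M := le_inf le_normalizer hPS
  have hcard : Nat.card ↥(normalizer ((P' : Subgroup S) : Set S)) = Nat.card M := by
    have h1 : normalizer ((P' : Subgroup S) : Set S) = (normalizer (P : Set G)).subgroupOf S := by
      rw [hP', subgroupOf_normalizer_eq hPS]
    rw [h1, ← inf_subgroupOf_right]
    exact Nat.card_congr (subgroupOfEquivOfLe inf_le_right).toEquiv
  rw [hcard]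
  -- an element `a` of `K` with `K = D ∪ a D`
  have hidx' : S = ⊤ ∨ S.index = 2 := by
    rcases (Nat.dvd_prime Nat.prime_two).1 hidx with h | h
    · exact Or.inl (index_eq_one.1 h)
    · exact Or.inr h
  have hmul : ∀ x y : G, x ∉ S → y ∉ S → x * y ∈ S := by
    intro x y hx hy
    rcases hidx' with h | h
    · rw [h]; trivial
    · rw [Subgroup.mul_mem_iff_of_index_two h]
      exact ⟨fun h => absurd h hx, fun h => absurd h hy⟩
  obtain ⟨a, haK, ha⟩ : ∃ a ∈ K, ∀ k ∈ K, k ∈ S ∨ a⁻¹ * k ∈ S := by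
    by_cases hKS : K ≤ S
    · exact ⟨1, K.one_mem, fun k hk => Or.inl (hKS hk)⟩
    · obtain ⟨a, haK, haS'⟩ := Set.not_subset.1 hKS
      have haS : a ∉ S := haS'
      refine ⟨a, haK, fun k _ => ?_⟩
      by_cases hk : k ∈ S
      · exact Or.inl hk
      · exact Or.inr (hmul _ _ (fun h => haS (by have h' := S.inv_mem h; rwa [inv_inv] at h')) hk)
  have ha2 : a * a ∈ K ⊓ S := by
    refine ⟨K.mul_mem haK haK, ?_⟩
    by_cases haS : a ∈ S
    · exact S.mul_mem haS haS
    · exact hmul _ _ haS haS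
  have haP : ∀ x ∈ P, a * x * a⁻¹ ∈ P := fun x hx => (mem_normalizer_iff.1 (hPK haK) x).1 hx
  have haM : ∀ x ∈ M, a * x * a⁻¹ ∈ M := fun x hx =>
    ⟨mul_mem (mul_mem (hPK haK) hx.1) ((normalizer (P : Set G)).inv_mem (hPK haK)), (inferInstance : S.Normal).conj_mem _ hx.2 a⟩
  -- the action of `a` on `M / P`
  let P₁ : Subgroup M := P.subgroupOf M
  have hP₁ : P₁.Normal := by
    refine ⟨fun x hx m => ?_⟩
    rw [mem_subgroupOf] at hx ⊢
    exact (mem_normalizer_iff.1 m.2.1 _).1 hx
  let φ : M →* M :=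
    { toFun := fun x => ⟨a * (x : G) * a⁻¹, haM x x.2⟩
      map_one' := by ext; simp
      map_mul' := fun x y => by ext; simp [mul_assoc] }
  let f : M ⧸ P₁ → M ⧸ P₁ := QuotientGroup.map P₁ P₁ φ (fun x hx => mem_subgroupOf.2 (haP _ (mem_subgroupOf.1 hx)))
  have hf : ∀ x : M, f (x : M ⧸ P₁) = ((φ x : M) : M ⧸ P₁) := fun x => rfl
  have hodd : Odd (Nat.card (M ⧸ P₁)) := by
    refine odd_card_of_unique f ?_ 1 ?_
    · intro q
      obtain ⟨x, rfl⟩ := QuotientGroup.mk_surjective q
      rw [hf, hf]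
      rw [QuotientGroup.eq]
      rw [mem_subgroupOf]
      show (a * (a * (x : G) * a⁻¹) * a⁻¹)⁻¹ * (x : G) ∈ P
      have h1 : (a * a) * (((x : G)⁻¹ * (a * a)⁻¹ * (x : G))) ∈ P := by
        refine mul_mem (hDP ha2) ?_
        have h2 := (mem_normalizer_iff.1 ((normalizer (P : Set G)).inv_mem x.2.1) _).1 (inv_mem (hDP ha2))
        rwa [inv_inv] at h2
      have e : (a * (a * (x : G) * a⁻¹) * a⁻¹)⁻¹ * (x : G) =
          (a * a) * (((x : G)⁻¹ * (a * a)⁻¹ * (x : G))) := by simp only [mul_inv_rev, inv_inv, mul_assoc]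
      rw [e]
      exact h1
    · intro q
      obtain ⟨x, rfl⟩ := QuotientGroup.mk_surjective q
      rw [hf]
      constructor
      · intro h
        have h' := (QuotientGroup.eq.1 h.symm)
        rw [mem_subgroupOf] at h'
        have h1 : (x : G)⁻¹ * (a * (x : G) * a⁻¹) ∈ P := h'
        have h2 : (x : G)⁻¹ ∈ (K ⊓ S) ⊔ P := by
          refine w_principle_S c hK ?_ hPS ?_ hPK (S.inv_mem x.2.2) ((normalizer (P : Set G)).inv_mem x.2.1) ?_
          · rintro rfl
            apply inf_ne_bot hF c hK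
            exact le_bot_iff.1 hDP
          · rintro rfl
            exact c.S_not_solvable (by
              have := hPp.isNilpotent
              infer_instance)
          · intro k hk
            rw [inv_inv]
            rcases ha k hk with hkS | hkS
            · have hkP : k ∈ P := hDP ⟨hk, hkS⟩
              have h3 := (mem_normalizer_iff.1 ((normalizer (P : Set G)).inv_mem x.2.1) _).1 hkP
              rw [inv_inv] at h3
              exact mul_mem h3 (inv_mem hkP)
            · have hdP : a⁻¹ * k ∈ P := hDP ⟨K.mul_mem (K.inv_mem haK) hk, hkS⟩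
              have h3 := (mem_normalizer_iff.1 ((normalizer (P : Set G)).inv_mem x.2.1) _).1 hdP
              rw [inv_inv] at h3
              have h4 := haP _ (mul_mem h3 (inv_mem hdP))
              have e : (x : G)⁻¹ * k * (x : G) * k⁻¹ = ((x : G)⁻¹ * (a * (x : G) * a⁻¹)) *
                  (a * ((x : G)⁻¹ * (a⁻¹ * k) * (x : G) * (a⁻¹ * k)⁻¹) * a⁻¹) := by group
              rw [e]
              exact mul_mem h1 h4
        rw [sup_eq_right.2 hDP] at h2
        rw [QuotientGroup.eq_one_iff, mem_subgroupOf]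
        have h5 := P.inv_mem h2
        rwa [inv_inv] at h5
      · intro h
        rw [QuotientGroup.eq_one_iff, mem_subgroupOf] at h
        rw [(QuotientGroup.eq_one_iff x).2 (mem_subgroupOf.2 h), QuotientGroup.eq_one_iff, mem_subgroupOf]
        exact haP _ h
  rw [Subgroup.card_eq_card_quotient_mul_card_subgroup P₁]
  refine hodd.mul ?_
  have hP₁p : IsPGroup l P₁ := hPp.comap_of_injective M.subtype M.subtype_injective
  obtain ⟨n, hn⟩ := IsPGroup.iff_card.1 hP₁p
  rw [hn]
  exact (hl.out.odd_of_ne_two hl2).pow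

/-- **(F3)** -/
theorem false_of_pgroup (hF : Fpf.{u}) (c : Ctx G S) (hidx : S.index ∣ 2) {l : ℕ} [hl : Fact l.Prime] (hl2 : l ≠ 2)
    (hS : ∀ P : Sylow l S, Odd (Nat.card ↥(normalizer ((P : Subgroup S) : Set S))) → IsCyclic P)
    {K : Subgroup G} (hK : IsCarter K) (hD : IsPGroup l (K ⊓ S : Subgroup G)) : False := by
  obtain ⟨P, hP⟩ := odd_norm hF c hidx hl2 hK hD
  refine not_dvd_of_cyclic c P (hS P hP) hK ?_
  obtain ⟨n, hn⟩ := IsPGroup.iff_card.1 hD
  rcases Nat.eq_zero_or_pos n with h0 | h0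
  · rw [h0, pow_zero] at hn
    exact absurd (card_eq_one.mp hn) (inf_ne_bot hF c hK)
  · rw [hn]; exact dvd_pow_self l h0.ne'

/-- the condition on `S` which follows from S3855 -/
def OddNormS (S : Type v) [Group S] : Prop :=
  ∀ (l : ℕ) [Fact l.Prime], l ≠ 2 → ∀ P : Sylow l S,
    Odd (Nat.card ↥(normalizer ((P : Subgroup S) : Set S))) → IsCyclic P

/-- **The frame**: `D` is a `2`-group unless it has two prime divisors, one of them odd. -/
theorem isPGroup_two (hF : Fpf.{u}) (c : Ctx G S) (hidx : S.index ∣ 2) (hS : OddNormS S)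
    {K : Subgroup G} (hK : IsCarter K)
    (h : ∀ r s : ℕ, r.Prime → s.Prime → r ≠ 2 → r ≠ s → r ∣ Nat.card (K ⊓ S : Subgroup G) →
      s ∣ Nat.card (K ⊓ S : Subgroup G) → False) : IsPGroup 2 (K ⊓ S : Subgroup G) := by
  rw [IsPGroup.iff_card]
  refine ⟨_, Nat.eq_prime_pow_of_unique_prime_dvd Nat.card_pos.ne' ?_⟩
  intro r hr hd
  by_contra hne
  have : Fact r.Prime := ⟨hr⟩
  refine false_of_pgroup hF c hidx (l := r) hne (hS r hne) hK ?_
  rw [IsPGroup.iff_card]
  refine ⟨_, Nat.eq_prime_pow_of_unique_prime_dvd Nat.card_pos.ne' ?_⟩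
  intro s hs hds
  by_contra hns
  exact h r s hr hs hne (Ne.symm hns) hd hds

/-! ### central involutions -/

/-- `|G : C| = |S : C ∩ S|` for `C S = G` -/
theorem index_eq_of_sup {C : Subgroup G} (h : C ⊔ S = ⊤) : C.index = (C.subgroupOf S).index := by
  have h1 : S.relIndex C = S.index := by
    have h2 : S.relIndex (S ⊔ C) = S.relIndex C := relIndex_sup_left _ _
    rw [← h2, sup_comm, h, relIndex_top_right]
  have h3 : (C ⊓ S).index = (C ⊓ S).relIndex C * C.index := (relIndex_mul_index inf_le_left).symm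
  have h4 : (C ⊓ S).index = (C ⊓ S).relIndex S * S.index := (relIndex_mul_index inf_le_right).symm
  rw [inf_relIndex_left, h1] at h3
  rw [inf_relIndex_right, h3, mul_comm] at h4
  have h5 : S.index ≠ 0 := index_ne_zero_of_finite
  exact Nat.eq_of_mul_eq_mul_right (Nat.pos_of_ne_zero h5) h4

/-- **Central involutions**, self-normalising Sylow `2`-subgroups of `S`. -/
theorem isPGroup_of_central (c : Ctx G S) (hidx : S.index ∣ 2)
    (hself : ∀ P : Sylow 2 S, normalizer ((P : Subgroup S) : Set S) = P)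
    {K : Subgroup G} (hK : IsCarter K) {t : S} (ht : t ≠ 1) (hKt : K ≤ centralizer ({(t : G)} : Set G))
    (hcen : ¬ 2 ∣ (centralizer ({t} : Set S)).index) : IsPGroup 2 K := by
  have hp2 : Fact (Nat.Prime 2) := ⟨Nat.prime_two⟩
  set C := centralizer ({(t : G)} : Set G) with hC
  have ht' : (t : G) ≠ 1 := fun h => ht (Subtype.ext h)
  have hCt : C ≠ ⊤ := c.cent_ne_top ht'
  have hCS : C ⊔ S = ⊤ := by
    rw [eq_top_iff, ← c.prod K hK]
    exact sup_le_sup_right hKt S
  have hCi : ¬ 2 ∣ C.index := by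
    rw [index_eq_of_sup hCS]
    have h1 : C.subgroupOf S = centralizer ({t} : Set S) := by
      ext x
      rw [mem_subgroupOf, hC, mem_centralizer_singleton_iff, mem_centralizer_singleton_iff]
      exact ⟨fun h => Subtype.ext h, fun h => congrArg Subtype.val h⟩
    rwa [h1]
  -- a Sylow subgroup of `C`
  obtain ⟨Q⟩ : Nonempty (Sylow 2 C) := inferInstance
  set P : Subgroup G := (Q : Subgroup C).map C.subtype with hP
  have hPC : P ≤ C := map_subtype_le _
  have hPp : IsPGroup 2 P := Q.2.map _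
  have hPi : ¬ 2 ∣ P.index := by
    intro hd
    have h1 : P.index = P.relIndex C * C.index := (relIndex_mul_index hPC).symm
    rw [h1] at hd
    rcases hp2.out.dvd_mul.1 hd with h2 | h2
    · have h3 : P.relIndex C = (Q : Subgroup C).index := by
        rw [relIndex, hP]
        congr 1
        exact comap_map_eq_self_of_injective C.subtype_injective _
      rw [h3] at h2
      exact Q.not_dvd_index h2
    · exact hCi h2
  -- `P` is self-normalising
  have hPS : IsPGroup 2 (P.subgroupOf S) := hPp.comap_of_injective S.subtype S.subtype_injective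
  let PG : Sylow 2 G := hPp.toSylow hPi
  have hPG : (PG : Subgroup G) = P := rfl
  have hPSi : ¬ 2 ∣ (P.subgroupOf S).index := by
    intro hd
    -- a larger `2`-subgroup of `S` is contained in a conjugate
    obtain ⟨R, hR⟩ := hPS.exists_le_sylow
    have h1 : Nat.card ((R : Subgroup S).map S.subtype) = Nat.card (R : Subgroup S) :=
      Nat.card_congr ((R : Subgroup S).equivMapOfInjective _ S.subtype_injective).symm.toEquiv
    obtain ⟨R', hR'⟩ := (R.2.map S.subtype).exists_le_sylow
    obtain ⟨g, hg⟩ := MulAction.exists_smul_eq G PG R'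
    have h2 : Nat.card (R : Subgroup S) ≤ Nat.card (P.subgroupOf S) := by
      have h3 : (R : Subgroup S).map S.subtype ≤ MulAut.conj g • (P ⊓ S) := by
        rintro _ ⟨x, hx, rfl⟩
        have h4 : S.subtype x ∈ (R' : Subgroup G) := hR' ⟨x, hx, rfl⟩
        rw [← hg, Sylow.coe_subgroup_smul, mem_conj_smul_iff] at h4
        rw [mem_conj_smul_iff]
        refine ⟨h4, ?_⟩
        have := (inferInstance : S.Normal).conj_mem _ x.2 g⁻¹
        rwa [inv_inv] at this
      have h5 : Nat.card ((R : Subgroup S).map S.subtype) ≤ Nat.card (MulAut.conj g • (P ⊓ S) : Subgroup G) :=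
        Nat.card_mono (Set.toFinite _) h3
      rw [h1] at h5
      refine h5.trans (le_of_eq ?_)
      rw [← inf_subgroupOf_right]
      rw [Nat.card_congr (subgroupOfEquivOfLe (inf_le_right : P ⊓ S ≤ S)).toEquiv]
      exact Nat.card_congr ((P ⊓ S).equivMapOfInjective _ (MulAut.conj g).injective).symm.toEquiv
    have h6 : P.subgroupOf S = R := by
      refine SetLike.ext' (Set.eq_of_subset_of_ncard_le hR ?_ (Set.toFinite _))
      exact h2
    rw [h6] at hd
    exact R.not_dvd_index hd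
  let P' : Sylow 2 S := hPS.toSylow hPSi
  have hP' : (P' : Subgroup S) = P.subgroupOf S := rfl
  have hNS : normalizer (P : Set G) ⊓ S ≤ P := by
    rintro x ⟨hx, hxS⟩
    have h1 : (⟨x, hxS⟩ : S) ∈ normalizer ((P' : Subgroup S) : Set S) := by
      rw [mem_normalizer_iff]
      intro y
      rw [hP', mem_subgroupOf, mem_subgroupOf]
      exact mem_normalizer_iff.1 hx _
    rw [hself P', hP', mem_subgroupOf] at h1
    exact h1
  have hN2 : IsPGroup 2 (normalizer (P : Set G)) := by
    -- `x² ∈ P`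
    intro x
    have h1 : (x : G) * x ∈ S := by
      rcases (Nat.dvd_prime Nat.prime_two).1 hidx with h | h
      · rw [index_eq_one.1 h]; trivial
      · rw [Subgroup.mul_mem_iff_of_index_two h]
    have h2 : (x : G) * x ∈ P := hNS ⟨mul_mem x.2 x.2, h1⟩
    obtain ⟨k, hk⟩ := hPp ⟨_, h2⟩
    refine ⟨k + 1, ?_⟩
    have h3 := congrArg Subtype.val hk
    ext
    push_cast at h3 ⊢
    rw [pow_succ', pow_mul, sq]
    exact h3
  have hNP : normalizer (P : Set G) = P := PG.is_maximal' hN2 le_normalizer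
  have hPc : IsCarter P := ⟨hPp.isNilpotent, hNP⟩
  obtain ⟨g, -, hg⟩ := c.conj_of_le hCt hK hPc hKt hPC
  have h1 : IsPGroup 2 (MulAut.conj g • K : Subgroup G) := by rw [hg]; exact hPp
  exact h1.of_equiv (K.equivMapOfInjective _ (MulAut.conj g).injective).symm

end Cfsg.Agent.H988.Car
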