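import Cfsg.Agent.H497.Stein.Pair
import Cfsg.Agent.H18.Carter.Rows
import Cfsg.Agent.H988.Car.Frame

/-!
# S3852: rows from power conjugacy (helper988)

`Moved p T` (S4114, helper497): every element of order `p` of `T` is conjugate to a different power of itself.

* `TwoS S` : `K ∩ S` is a `2`-group for all Carter subgroups `K`;
* `two_of_moved`, `two_of_dat` : all odd primes moved;
* `two_of_pair`, `two_of_even` : one open prime `r`, elements of order `r` commuting with an involution are moved, `|G : S| ∣ 2`,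
  S3855 for `S`.
-/

set_option autoImplicit false
set_option linter.unusedSectionVars false

namespace Cfsg.Agent.H988.Car

open Subgroup Cfsg
open Cfsg.Agent.Solvable.Carter Cfsg.Agent.H18.Carter Cfsg.Agent.H381.Car
open Cfsg.Agent.H497.Stein

universe u v

theorem mem_of_movedAt {T : Type v} [Group T] {z : T} (h : MovedAt z) :
    ∃ g : T, g * z * g⁻¹ ≠ z ∧ g * z * g⁻¹ ∈ zpowers z := by
  obtain ⟨g, j, h1, h2⟩ := h
  exact ⟨g, by rwa [h1], by rw [h1]; exact pow_mem (mem_zpowers z) j⟩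

theorem powConj_of_moved {T : Type v} [Group T] (h : ∀ p : ℕ, p.Prime → p ≠ 2 → Moved p T) : PowConj T :=
  fun z hz hz2 => mem_of_movedAt (h _ hz hz2 z rfl)

variable {G : Type u} [Group G] [Finite G] {S : Subgroup G} [S.Normal]

/-- `K ∩ S` is a `2`-group for all Carter subgroups `K` -/
def TwoS (S : Subgroup G) : Prop := ∀ K : Subgroup G, IsCarter K → IsPGroup 2 ↥(K ⊓ S)

theorem not_dvd_of_moved' (c : Ctx G S) {p : ℕ} (hp : p.Prime) (h : Moved p ↥S) {K : Subgroup G} (hK : IsCarter K) :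
    ¬ p ∣ Nat.card (K ⊓ S : Subgroup G) := by
  have : Fact p.Prime := ⟨hp⟩
  exact rowAt_of_power (fun z hz => mem_of_movedAt (h z hz)) G S c ⟨MulEquiv.refl _⟩ K hK

theorem two_of_moved (c : Ctx G S) (h : ∀ p : ℕ, p.Prime → p ≠ 2 → Moved p ↥S) : TwoS S := by
  intro K hK
  rw [IsPGroup.iff_card]
  refine ⟨_, Nat.eq_prime_pow_of_unique_prime_dvd Nat.card_pos.ne' ?_⟩
  intro r hr hd
  by_contra hne
  exact not_dvd_of_moved' c hr (h r hr hne) hK hd

/-- the primes whose square divides the order -/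
theorem moved_of_dat {T : Type v} [Group T] {N : ℕ} (hs : IsSimpleGroup T) (hc : Nat.card T = N) {l : List (ℕ × ℕ)}
    (hv : OrdDiv.valid l N = true) (h4 : 4 ∣ N) (P : ℕ → Prop)
    (hrows : ∀ x ∈ l, 2 ≤ x.2 → x.1 ≠ 2 → P x.1 → Moved x.1 T) : ∀ p : ℕ, p.Prime → p ≠ 2 → P p → Moved p T := by
  have hfin : Finite T := Nat.finite_of_card_ne_zero (by
    rw [hc]
    exact (OrdDiv.valid_pos hv).ne')
  have hna := not_comm_of_card hs (by rw [hc]; exact h4)
  intro p hp hp2 hP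
  by_cases h : p ^ 2 ∣ N
  · obtain ⟨k, hk, h2k⟩ := OrdDiv.exists_pair hv hp (by norm_num : 1 ≤ 2) h
    exact hrows (p, k) hk h2k hp2 hP
  · exact moved_of_not_sq hna hp (by rw [hc]; exact h)

theorem two_of_dat (c : Ctx G S) {N : ℕ} (D : BpSpor.Dat ↥S N) {l : List (ℕ × ℕ)}
    (hv : OrdDiv.valid l N = true) (h4 : 4 ∣ N) (hrows : ∀ x ∈ l, 2 ≤ x.2 → x.1 ≠ 2 → Moved x.1 ↥S) : TwoS S :=
  two_of_moved c fun p hp hp2 => moved_of_dat D.simple D.card hv h4 (fun _ => True)
    (fun x hx h1 h2 _ => hrows x hx h1 h2) p hp hp2 trivial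

/-- two commuting central elements -/
theorem not_dvd_of_pair' (c : Ctx G S) {p q : ℕ} (hp : p.Prime) (hq : q.Prime) (h : MovedPair p q ↥S)
    {K : Subgroup G} (hK : IsCarter K) (hdp : p ∣ Nat.card (K ⊓ S : Subgroup G)) :
    ¬ q ∣ Nat.card (K ⊓ S : Subgroup G) := by
  intro hdq
  have : Fact p.Prime := ⟨hp⟩
  have : Fact q.Prime := ⟨hq⟩
  obtain ⟨y, hyS, hyK, hy, hcy⟩ := exists_central (S := S) hK.1 hdp
  obtain ⟨s, hsS, hsK, hs, hcs⟩ := exists_central (S := S) hK.1 hdq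
  obtain ⟨g, hg, hg'⟩ := mem_of_movedAt (h ⟨y, hyS⟩ ⟨s, hsS⟩ (by rw [Subgroup.orderOf_mk, hy])
    (by rw [Subgroup.orderOf_mk, hs]) (Subtype.ext (mem_centralizer_singleton_iff.1 (hcy hsK))))
  refine hg (Subtype.ext ?_)
  show (g : G) * y * (g : G)⁻¹ = y
  refine c.eq_of_conj hK hcy ?_
  obtain ⟨i, hi⟩ := hg'
  have hi' : y ^ i = (g : G) * y * (g : G)⁻¹ := congrArg Subtype.val hi
  intro k hk
  rw [← hi', mem_centralizer_singleton_iff]
  have h1 : k * y = y * k := mem_centralizer_singleton_iff.mp (hcy hk)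
  exact (Commute.zpow_right h1 i : Commute k (y ^ i))

/-- an involution of `S` normalises a Sylow `r`-subgroup -/
theorem not_odd_of_evIn {T : Type v} [Group T] [Finite T] {r : ℕ} [Fact r.Prime]
    (h : ∃ (P : Sylow r T) (t : T), orderOf t = 2 ∧ t ∈ normalizer ((P : Subgroup T) : Set T)) (Q : Sylow r T) :
    ¬ Odd (Nat.card ↥(normalizer ((Q : Subgroup T) : Set T))) := by
  obtain ⟨P, t, ht, hn⟩ := h
  obtain ⟨g, hg⟩ := MulAction.exists_smul_eq T P Q
  intro ho
  have h1 : g * t * g⁻¹ ∈ normalizer ((Q : Subgroup T) : Set T) := by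
    rw [← hg, Sylow.coe_subgroup_smul, mem_normalizer_iff]
    intro x
    rw [mem_conj_smul_iff, mem_conj_smul_iff, mem_normalizer_iff.1 hn (g⁻¹ * x * g)]
    have e : t * (g⁻¹ * x * g) * t⁻¹ = g⁻¹ * (g * t * g⁻¹ * x * (g * t * g⁻¹)⁻¹) * g := by group
    rw [e]
  have h2 : orderOf (⟨_, h1⟩ : ↥(normalizer ((Q : Subgroup T) : Set T))) = 2 := by
    rw [Subgroup.orderOf_mk]
    have e : g * t * g⁻¹ = MulAut.conj g t := rfl
    rw [e, MulEquiv.orderOf_eq, ht]
  have h3 := orderOf_dvd_natCard (⟨_, h1⟩ : ↥(normalizer ((Q : Subgroup T) : Set T)))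
  rw [h2] at h3
  exact (Nat.not_even_iff_odd.2 ho) (even_iff_two_dvd.2 h3)

/-- **One open prime `r`**, not both of `2`, `r` divide `|D|`. -/
theorem two_of_open (hF : Fpf.{u}) (c : Ctx G S) (hidx : S.index ∣ 2) {r : ℕ} [hr : Fact r.Prime] (hr2 : r ≠ 2)
    (hev : ∃ (P : Sylow r ↥S) (t : ↥S), orderOf t = 2 ∧ t ∈ normalizer ((P : Subgroup ↥S) : Set ↥S))
    (hm : ∀ p : ℕ, p.Prime → p ≠ 2 → p ≠ r → Moved p ↥S)
    (h2 : ∀ K : Subgroup G, IsCarter K → r ∣ Nat.card (K ⊓ S : Subgroup G) → ¬ 2 ∣ Nat.card (K ⊓ S : Subgroup G)) :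
    TwoS S := by
  have : Fact (Nat.Prime 2) := ⟨Nat.prime_two⟩
  intro K hK
  rw [IsPGroup.iff_card]
  refine ⟨_, Nat.eq_prime_pow_of_unique_prime_dvd Nat.card_pos.ne' ?_⟩
  intro q hq hd
  by_contra hne
  have hqr : q = r := by
    by_contra h
    exact not_dvd_of_moved' c hq (hm q hq hne h) hK hd
  subst hqr
  have h3 := h2 K hK hd
  have hD : IsPGroup q (K ⊓ S : Subgroup G) := by
    rw [IsPGroup.iff_card]
    refine ⟨_, Nat.eq_prime_pow_of_unique_prime_dvd Nat.card_pos.ne' ?_⟩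
    intro s hs hds
    by_contra hns
    rcases eq_or_ne s 2 with rfl | hs2
    · exact h3 hds
    · exact not_dvd_of_moved' c hs (hm s hs hs2 hns) hK hds
  obtain ⟨P, hP⟩ := odd_norm hF c hidx hr2 hK hD
  exact not_odd_of_evIn hev P hP

/-- **One open prime**, pairs. -/
theorem two_of_pair (hF : Fpf.{u}) (c : Ctx G S) (hidx : S.index ∣ 2) {r : ℕ} [hr : Fact r.Prime] (hr2 : r ≠ 2)
    (hev : ∃ (P : Sylow r ↥S) (t : ↥S), orderOf t = 2 ∧ t ∈ normalizer ((P : Subgroup ↥S) : Set ↥S))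
    (hm : ∀ p : ℕ, p.Prime → p ≠ 2 → p ≠ r → Moved p ↥S) (hpair : MovedPair r 2 ↥S) : TwoS S :=
  two_of_open hF c hidx hr2 hev hm fun _ hK hd => not_dvd_of_pair' c hr.out Nat.prime_two hpair hK hd

/-- **One open prime**, pairs or `2`-central involutions. -/
theorem two_of_even (hF : Fpf.{u}) (c : Ctx G S) (hidx : S.index ∣ 2) {r : ℕ} [hr : Fact r.Prime] (hr2 : r ≠ 2)
    (hself : ∀ P : Sylow 2 ↥S, normalizer ((P : Subgroup ↥S) : Set ↥S) = P)
    (hev : ∃ (P : Sylow r ↥S) (t : ↥S), orderOf t = 2 ∧ t ∈ normalizer ((P : Subgroup ↥S) : Set ↥S))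
    (hm : ∀ p : ℕ, p.Prime → p ≠ 2 → p ≠ r → Moved p ↥S)
    (hpair : ∀ t y : ↥S, orderOf t = 2 → orderOf y = r → t * y = y * t → MovedAt y ∨
      ¬ 2 ∣ (centralizer ({t} : Set ↥S)).index) : TwoS S := by
  refine two_of_open hF c hidx hr2 hev hm fun K hK hdr hd2 => ?_
  have : Fact (Nat.Prime 2) := ⟨Nat.prime_two⟩
  obtain ⟨y, hyS, hyK, hy, hcy⟩ := exists_central (S := S) hK.1 hdr
  obtain ⟨t, htS, htK, ht, hct⟩ := exists_central (S := S) hK.1 hd2
  rcases hpair ⟨t, htS⟩ ⟨y, hyS⟩ (by rw [Subgroup.orderOf_mk, ht]) (by rw [Subgroup.orderOf_mk, hy])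
    (Subtype.ext (mem_centralizer_singleton_iff.1 (hcy htK))) with h | h
  · obtain ⟨g, hg, hg'⟩ := mem_of_movedAt h
    refine hg (Subtype.ext ?_)
    show (g : G) * y * (g : G)⁻¹ = y
    refine c.eq_of_conj hK hcy ?_
    obtain ⟨i, hi⟩ := hg'
    have hi' : y ^ i = (g : G) * y * (g : G)⁻¹ := congrArg Subtype.val hi
    intro k hk
    rw [← hi', mem_centralizer_singleton_iff]
    have h1 : k * y = y * k := mem_centralizer_singleton_iff.mp (hcy hk)
    exact (Commute.zpow_right h1 i : Commute k (y ^ i))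
  · have h1 : IsPGroup 2 K := isPGroup_of_central c hidx hself hK (t := ⟨t, htS⟩)
      (fun e => by
        have e' : t = 1 := congrArg Subtype.val e
        rw [e', orderOf_one] at ht
        norm_num at ht) hct h
    obtain ⟨n, hn⟩ := IsPGroup.iff_card.1 (h1.to_le (inf_le_left : K ⊓ S ≤ K))
    rw [hn] at hdr
    exact hr2 ((Nat.prime_dvd_prime_iff_eq hr.out Nat.prime_two).1 (hr.out.dvd_of_dvd_pow hdr))

/-- **Pairs of primes**: `D` is a `2`-group if no two primes `p ≠ 2`, `q ≠ p` divide `|D|`. -/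
theorem two_of_pairs (hF : Fpf.{u}) (c : Ctx G S) (hidx : S.index ∣ 2) (hS : OddNormS ↥S)
    (h : ∀ p q : ℕ, p.Prime → q.Prime → p ≠ 2 → p ≠ q → Moved p ↥S ∨ Moved q ↥S ∧ q ≠ 2 ∨ MovedPair p q ↥S ∨
      MovedPair q p ↥S) : TwoS S := by
  intro K hK
  refine isPGroup_two hF c hidx hS hK ?_
  intro p q hp hq hp2 hpq hdp hdq
  rcases h p q hp hq hp2 hpq with h1 | ⟨h1, -⟩ | h1 | h1
  · exact not_dvd_of_moved' c hp h1 hK hdp
  · exact not_dvd_of_moved' c hq h1 hK hdq
  · exact not_dvd_of_pair' c hp hq h1 hK hdp hdq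
  · exact not_dvd_of_pair' c hq hp h1 hK hdq hdp

/-- all automorphisms of `S` inner: `G = S` -/
theorem index_of_inner (c : Ctx G S) (h : ∀ φ : MulAut ↥S, ∃ s : ↥S, φ = MulAut.conj s) : S.index ∣ 2 := by
  have h1 : S = ⊤ := by
    rw [eq_top_iff]
    intro g _
    obtain ⟨s, hs⟩ := h (MulAut.conjNormal g)
    have h2 : (s : G)⁻¹ * g ∈ centralizer (S : Set G) := by
      intro x hx
      have h3 := congrArg (fun f : MulAut ↥S => ((f ⟨x, hx⟩ : ↥S) : G)) hs
      simp only [MulAut.conjNormal_apply, MulAut.conj_apply, Subgroup.coe_mul, InvMemClass.coe_inv] at h3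
      have h4 : g * x * g⁻¹ = (s : G) * x * (s : G)⁻¹ := h3
      have h5 : (s : G)⁻¹ * (g * x * g⁻¹) = (s : G)⁻¹ * ((s : G) * x * (s : G)⁻¹) := by rw [h4]
      calc x * ((s : G)⁻¹ * g) = (s : G)⁻¹ * ((s : G) * x * (s : G)⁻¹) * g := by group
        _ = (s : G)⁻¹ * (g * x * g⁻¹) * g := by rw [h5]
        _ = (s : G)⁻¹ * g * x := by group
    rw [c.cen, mem_bot] at h2
    have h3 : g = s := by
      have h4 := congrArg (fun y => (s : G) * y) h2
      simpa using h4
    rw [h3]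
    exact s.2
  rw [h1, index_top]
  exact one_dvd 2

theorem inner_of_equiv {T : Type v} [Group T] {T' : Type u} [Group T'] (e : T' ≃* T)
    (h : ∀ α : MulAut T, ∃ k : T, α = MulAut.conj k) : ∀ φ : MulAut T', ∃ k : T', φ = MulAut.conj k := by
  intro φ
  obtain ⟨k, hk⟩ := h ((e.symm.trans φ).trans e)
  refine ⟨e.symm k, ?_⟩
  ext x
  apply e.injective
  have h1 := congrArg (fun f : MulAut T => f (e x)) hk
  have h2 : e (φ (e.symm (e x))) = k * e x * k⁻¹ := h1
  rw [e.symm_apply_apply] at h2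
  rw [h2, MulAut.conj_apply, map_mul, map_mul, map_inv, e.apply_symm_apply]

/-- the outer automorphism group of `S` has order at most two -/
theorem index_of_two (c : Ctx G S) (h : ∀ φ ψ : MulAut ↥S, (∃ s : ↥S, φ = MulAut.conj s) ∨ (∃ s : ↥S, ψ = MulAut.conj s) ∨
    ∃ s : ↥S, φ * ψ = MulAut.conj s) : S.index ∣ 2 := by
  have key : ∀ g : G, (∃ s : ↥S, MulAut.conjNormal g = MulAut.conj s) → g ∈ S := by
    rintro g ⟨s, hs⟩
    have h2 : (s : G)⁻¹ * g ∈ centralizer (S : Set G) := by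
      intro x hx
      have h3 := congrArg (fun f : MulAut ↥S => ((f ⟨x, hx⟩ : ↥S) : G)) hs
      simp only [MulAut.conjNormal_apply, MulAut.conj_apply, Subgroup.coe_mul, InvMemClass.coe_inv] at h3
      have h4 : g * x * g⁻¹ = (s : G) * x * (s : G)⁻¹ := h3
      have h5 : (s : G)⁻¹ * (g * x * g⁻¹) = (s : G)⁻¹ * ((s : G) * x * (s : G)⁻¹) := by rw [h4]
      calc x * ((s : G)⁻¹ * g) = (s : G)⁻¹ * ((s : G) * x * (s : G)⁻¹) * g := by group
        _ = (s : G)⁻¹ * (g * x * g⁻¹) * g := by rw [h5]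
        _ = (s : G)⁻¹ * g * x := by group
    rw [c.cen, mem_bot] at h2
    have h3 : g = s := by
      have h4 := congrArg (fun y => (s : G) * y) h2
      simpa using h4
    rw [h3]
    exact s.2
  by_cases hex : ∃ a : G, a ∉ S
  · obtain ⟨a, ha⟩ := hex
    have : S.index = 2 := by
      rw [index_eq_two_iff]
      refine ⟨a, fun b => ?_⟩
      by_cases hb : b ∈ S
      · right
        refine ⟨hb, fun hba => ha ?_⟩
        exact (mul_mem_cancel_left hb).1 hba
      · left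
        refine ⟨?_, hb⟩
        rcases h (MulAut.conjNormal b) (MulAut.conjNormal a) with h1 | h1 | h1
        · exact absurd (key b h1) hb
        · exact absurd (key a h1) ha
        · rw [← map_mul] at h1
          exact key _ h1
    rw [this]
  · push Not at hex
    have h1 : S = ⊤ := by
      rw [eq_top_iff]
      intro g _
      exact hex g
    rw [h1, index_top]
    exact one_dvd 2

theorem OddNormS.congr {T : Type v} [Group T] [Finite T] {T' : Type u} [Group T'] (e : T ≃* T') (h : OddNormS T') :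
    OddNormS T := by
  intro l hl hl2 P hP
  have hs : Function.Surjective e.toMonoidHom := e.surjective
  have hc : ((P.mapSurjective hs : Sylow l T') : Subgroup T') = (P : Subgroup T).map e.toMonoidHom :=
    Sylow.coe_mapSurjective hs P
  have := h l hl2 (P.mapSurjective hs) ?_
  · have e2 : ↥(P : Subgroup T) ≃* ↥((P.mapSurjective hs : Sylow l T') : Subgroup T') :=
      (e.subgroupMap (P : Subgroup T)).trans (MulEquiv.subgroupCongr hc.symm)
    exact isCyclic_of_injective e2.toMonoidHom e2.injective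
  · have h1 : (normalizer (((P.mapSurjective hs : Sylow l T') : Subgroup T') : Set T')) =
        (normalizer ((P : Subgroup T) : Set T)).map e.toMonoidHom := by
      rw [hc]
      exact (Subgroup.map_equiv_normalizer_eq (P : Subgroup T) e).symm
    rw [h1, Nat.card_congr ((normalizer ((P : Subgroup T) : Set T)).equivMapOfInjective e.toMonoidHom
      e.injective).toEquiv.symm]
    exact hP

end Cfsg.Agent.H988.Car
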