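import Cfsg.Agent.H497.Stein.HSMc
import Cfsg.Agent.H988.Car.Mov

/-!
# S3852: the row `McL` (helper988)
-/

set_option autoImplicit false

namespace Cfsg.Agent.H988.Car

open Subgroup Cfsg
open Cfsg.Agent.Solvable.Carter Cfsg.Agent.H18.Carter Cfsg.Agent.H381.Car
open Cfsg.Agent.H497.Stein

universe u

theorem row_McL {G : Type u} [Group G] [Finite G] {S : Subgroup G} [S.Normal] (_hF : Fpf.{u}) (c : Ctx G S)
    (h : Spor.IsoMcL ↥S) : TwoS S := by
  have D := dat_mcl h
  have h3 := moved_mcl_three h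
  obtain ⟨e⟩ := h
  refine two_of_dat c D (l := [(2, 7), (3, 6), (5, 3), (7, 1), (11, 1)])
    (by decide +kernel) (by norm_num) fun x hx hx2 hx3 => ?_
  simp only [List.mem_cons, List.not_mem_nil, or_false] at hx
  rcases hx with rfl | rfl | rfl | rfl | rfl
  · exact absurd rfl hx3
  · exact h3
  · exact moved_mcl_five.congr e
  · exact absurd hx2 (by norm_num)
  · exact absurd hx2 (by norm_num)

end Cfsg.Agent.H988.Car
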