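import Cfsg.Agent.H497.Stein.Mat
import Cfsg.Agent.H988.Car.Mov

/-!
# S3852: the rows of the Mathieu groups and of `J₁` (helper988)
-/

set_option autoImplicit false

namespace Cfsg.Agent.H988.Car

open Subgroup Cfsg
open Cfsg.Agent.Solvable.Carter Cfsg.Agent.H18.Carter Cfsg.Agent.H381.Car
open Cfsg.Agent.H497.Stein

universe u

variable {G : Type u} [Group G] [Finite G] {S : Subgroup G} [S.Normal]

theorem row_M11 (_hF : Fpf.{u}) (c : Ctx G S) (h : Spor.IsoM11 ↥S) : TwoS S := by
  refine two_of_dat c (dat_m11 h) (l := [(2, 4), (3, 2), (5, 1), (11, 1)]) (by decide +kernel) (by norm_num)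
    (fun x hx hx2 hx3 => ?_)
  simp only [List.mem_cons, List.not_mem_nil, or_false] at hx
  rcases hx with rfl | rfl | rfl | rfl
  · exact absurd rfl hx3
  · exact moved_of_one Nat.prime_three (by norm_num) fun x y hx hy =>
      Cfsg.Agent.SporadicA.M11Facts2.isConj_three (Cfsg.Agent.Cit.Eleven.isM11 h) hx hy
  · exact absurd hx2 (by norm_num)
  · exact absurd hx2 (by norm_num)

theorem row_M12 (_hF : Fpf.{u}) (c : Ctx G S) (h : Spor.IsoM12 ↥S) : TwoS S := by
  refine two_of_dat c (dat_m12 h) (l := [(2, 6), (3, 3), (5, 1), (11, 1)]) (by decide +kernel) (by norm_num)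
    (fun x hx hx2 hx3 => ?_)
  simp only [List.mem_cons, List.not_mem_nil, or_false] at hx
  rcases hx with rfl | rfl | rfl | rfl
  · exact absurd rfl hx3
  · obtain ⟨e⟩ := h
    have : Finite Spor.M12 := Finite.of_equiv ↥S e.toEquiv
    exact (moved_of_real Nat.prime_three (by norm_num) fun y hy => real_m12 hy).congr e
  · exact absurd hx2 (by norm_num)
  · exact absurd hx2 (by norm_num)

theorem row_M22 (_hF : Fpf.{u}) (c : Ctx G S) (h : Spor.IsoM22 ↥S) : TwoS S := by
  refine two_of_dat c (dat_m22 h) (l := [(2, 7), (3, 2), (5, 1), (7, 1), (11, 1)]) (by decide +kernel) (by norm_num)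
    (fun x hx hx2 hx3 => ?_)
  simp only [List.mem_cons, List.not_mem_nil, or_false] at hx
  rcases hx with rfl | rfl | rfl | rfl | rfl
  · exact absurd rfl hx3
  · obtain ⟨e⟩ := h
    exact moved_m22.congr e
  all_goals exact absurd hx2 (by norm_num)

theorem row_M23 (_hF : Fpf.{u}) (c : Ctx G S) (h : Spor.IsoM23 ↥S) : TwoS S := by
  refine two_of_dat c (dat_m23 h) (l := [(2, 7), (3, 2), (5, 1), (7, 1), (11, 1), (23, 1)]) (by decide +kernel)
    (by norm_num) (fun x hx hx2 hx3 => ?_)
  simp only [List.mem_cons, List.not_mem_nil, or_false] at hx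
  rcases hx with rfl | rfl | rfl | rfl | rfl | rfl
  · exact absurd rfl hx3
  · obtain ⟨e⟩ := h
    have : Finite Spor.M23 := Finite.of_equiv ↥S e.toEquiv
    have : Fact (Nat.Prime 3) := ⟨Nat.prime_three⟩
    have hle : Spor.M22 ≤ Spor.M23 := inf_le_left
    refine (Moved.of_hom (inclusion hle) (inclusion_injective hle) ?_ moved_m22).congr e
    intro k hk
    rw [Cfsg.Agent.SporadicA.MathieuRecog.card_M23, show (10200960 : ℕ) = 3 ^ 2 * 1133440 by norm_num] at hk
    rw [Cfsg.Agent.SporadicA.MathieuRecog.card_M22]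
    exact (pow_dvd_of Nat.prime_three (by norm_num) hk).trans (by norm_num)
  all_goals exact absurd hx2 (by norm_num)

theorem row_M24 (_hF : Fpf.{u}) (c : Ctx G S) (h : Spor.IsoM24 ↥S) : TwoS S := by
  refine two_of_dat c (dat_m24 h) (l := [(2, 10), (3, 3), (5, 1), (7, 1), (11, 1), (23, 1)]) (by decide +kernel)
    (by norm_num) (fun x hx hx2 hx3 => ?_)
  simp only [List.mem_cons, List.not_mem_nil, or_false] at hx
  rcases hx with rfl | rfl | rfl | rfl | rfl | rfl
  · exact absurd rfl hx3
  · obtain ⟨e⟩ := h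
    have : Finite M24 := Finite.of_equiv ↥S e.toEquiv
    exact (moved_of_real Nat.prime_three (by norm_num) fun y hy => real_m24 hy).congr e
  all_goals exact absurd hx2 (by norm_num)

theorem row_J1 (_hF : Fpf.{u}) (c : Ctx G S) (h : Spor.IsoJ1 ↥S) : TwoS S := by
  refine two_of_dat c (dat_j1 h) (l := [(2, 3), (3, 1), (5, 1), (7, 1), (11, 1), (19, 1)]) (by decide +kernel)
    (by norm_num) (fun x hx hx2 hx3 => ?_)
  simp only [List.mem_cons, List.not_mem_nil, or_false] at hx
  rcases hx with rfl | rfl | rfl | rfl | rfl | rfl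
  · exact absurd rfl hx3
  all_goals exact absurd hx2 (by norm_num)

end Cfsg.Agent.H988.Car
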